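import Cfsg.Agent.Lib.Ess.Rank2
import Cfsg.Agent.Lib.Fus.QuatReal
import Cfsg.Agent.Lib.Fus2.Super

/-!
Metacyclic groups of supersoluble type.
-/

set_option autoImplicit false
set_option linter.style.haveILetI false
set_option linter.unusedVariables false

namespace Cfsg.Agent.Ess

open Subgroup Cfsg.Agent.Fus Cfsg.Agent.TwoGrp
open Cfsg.FusionSystem (normalizerIn centralizerIn)
open Cfsg.Agent.Fus2 (M afn img HomOn)
open scoped commutatorElement

universe u

section Aut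

variable {G : Type u} [Group G] [Finite G] {p : ℕ} [hp : Fact p.Prime]

theorem small_of_card_dvd {V : Type*} [Group V] [Finite V] (hV : Nat.card V ∣ p) :
    (∀ a b : MulAut V, a * b = b * a) ∧ ∀ a : MulAut V, a ^ (p - 1) = 1 := by
  rcases (Nat.dvd_prime hp.out).1 hV with h | h
  · haveI := (Nat.card_eq_one_iff_unique.1 h).1
    exact ⟨fun _ _ => MulEquiv.ext fun x => Subsingleton.elim _ _,
      fun _ => MulEquiv.ext fun x => Subsingleton.elim _ _⟩
  · haveI := isCyclic_of_prime_card h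
    refine ⟨fun a b => (IsCyclic.mulAutMulEquiv V).injective ?_, fun a => ?_⟩
    · rw [map_mul, map_mul, mul_comm]
    · rw [← Nat.totient_prime hp.out, ← h, ← IsCyclic.card_mulAut]; exact pow_card_eq_one'

theorem small_step (hG : IsPGroup p G) {B C : Subgroup G} (hC : Inv ⊤ C) (hB : Inv ⊤ B)
    (h : B.relIndex C ∣ p) : (∀ a b : MulAut G, TrivOn ((b * a)⁻¹ * (a * b)) C B) ∧
      ∀ a : MulAut G, TrivOn (a ^ (p - 1)) C B := by
  haveI := normal_subgroupOf_of_relIndex_dvd hG h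
  obtain ⟨h1, h2⟩ := small_of_card_dvd (V := C ⧸ B.subgroupOf C) h
  refine ⟨fun a b => ?_, fun a => ?_⟩
  · have := (sec_eq_one_iff hC hB ((⟨b, mem_top _⟩ * ⟨a, mem_top _⟩)⁻¹ *
      (⟨a, mem_top _⟩ * ⟨b, mem_top _⟩))).1 (by
        rw [map_mul, map_inv, map_mul, map_mul, inv_mul_eq_one, h1])
    exact this
  · have := (sec_eq_one_iff hC hB (⟨a, mem_top _⟩ ^ (p - 1))).1 (by rw [map_pow, h2])
    exact this

/-- If the Frattini quotient has a characteristic series with factors of order dividing `p` the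
`p'`-groups of automorphisms are abelian of exponent dividing `p - 1`. -/
theorem small_of_series (hG : IsPGroup p G) {K : Subgroup G} (hK : Inv ⊤ K)
    (h₁ : K.relIndex ⊤ ∣ p) (h₂ : (frattini G).relIndex K ∣ p)
    (H : Subgroup (MulAut G)) (hH : (Nat.card H).Coprime p) :
    IsMulCommutative H ∧ ∀ h ∈ H, h ^ (p - 1) = 1 := by
  obtain ⟨a1, a2⟩ := small_step hG (inv_top _) hK h₁
  obtain ⟨b1, b2⟩ := small_step hG hK (inv_char _ _) h₂
  have key : ∀ β ∈ H, TrivOn β ⊤ K → TrivOn β K (frattini G) → β = 1 := fun β hβ e₁ e₂ => by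
    have hc : (orderOf β).Coprime p :=
      Nat.Coprime.coprime_dvd_left (Subgroup.orderOf_dvd_natCard H hβ) hH
    refine trivOn_top_bot_iff.1 (trivOn_bot_of_nonGen hG nonGen_frattini le_top hc ?_)
    exact trivOn_trans_of_coprime hG hc (fun d hd => inv_char ⊤ _ β (mem_top _) d hd)
      (normalizer_eq_top (frattini G) ▸ le_top) e₁ e₂
  refine ⟨⟨⟨fun a b => Subtype.ext ?_⟩⟩, fun a ha => key _ (H.pow_mem ha _) (a2 a) (b2 a)⟩
  exact (inv_mul_eq_one.1 (key _ (H.mul_mem (H.inv_mem (H.mul_mem b.2 a.2)) (H.mul_mem a.2 b.2))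
    (a1 _ _) (b1 _ _))).symm

theorem small_or_irr (hG : IsPGroup p G) (hi : (frattini G).index ≤ p ^ 2) :
    Irr p (frattini G) ∨ ∀ H : Subgroup (MulAut G), (Nat.card H).Coprime p →
      IsMulCommutative H ∧ ∀ h ∈ H, h ^ (p - 1) = 1 := by
  obtain ⟨k, hk⟩ := hG.index (frattini G)
  have hk2 : k ≤ 2 := (Nat.pow_le_pow_iff_right hp.out.one_lt).1 (hk ▸ hi)
  by_cases h2 : k = 2
  · subst h2
    by_cases h : ∀ K : Subgroup G, Inv ⊤ K → frattini G ≤ K → K = frattini G ∨ K = ⊤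
    · exact .inl ⟨hk, h⟩
    · push Not at h
      obtain ⟨K, hK, hle, h₁, h₂⟩ := h
      obtain ⟨e₁, e₂⟩ := relIndex_dvd_of_between (p := p) hle le_top h₁ h₂
        (by rw [relIndex_top_right, hk])
      exact .inr (small_of_series hG hK e₂.dvd e₁.dvd)
  · refine .inr (small_of_series hG (inv_char _ _) ?_ (by rw [relIndex_self]; exact one_dvd _))
    rw [relIndex_top_right, hk]
    simpa using pow_dvd_pow p (by omega : k ≤ 1)

theorem index_frattini_le_of_isMetacyclic (hG : IsPGroup p G) (hm : IsMetacyclic G) :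
    (frattini G).index ≤ p ^ 2 := by
  have := relIndex_phi_le (p := p) (P := (⊤ : Subgroup G))
    (isMetacyclic_of_injective hm (⊤ : Subgroup G).subtype (subtype_injective _))
  rwa [phi_top hG, relIndex_top_right] at this

/-- The values of an automorphism of order three of `Q₈`. -/
def q8rot : QuaternionGroup 2 → QuaternionGroup 2
  | .a i => if i = 0 then .a 0 else if i = 1 then .xa 0 else if i = 2 then .a 2 else .xa 2
  | .xa i => if i = 0 then .xa 1 else if i = 1 then .a 1 else if i = 2 then .xa 3 else .a 3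

theorem q8rot_mul : ∀ x y, q8rot (x * y) = q8rot x * q8rot y := by decide

theorem q8rot_three : ∀ x, q8rot (q8rot (q8rot x)) = x := by decide

omit [Finite G] in
theorem exists_aut_three (e : G ≃* QuaternionGroup 2) : ∃ a : MulAut G, a ^ 3 = 1 ∧ a ≠ 1 := by
  let a : MulAut (QuaternionGroup 2) :=
    { toFun := q8rot
      invFun := fun x => q8rot (q8rot x)
      left_inv := q8rot_three
      right_inv := q8rot_three
      map_mul' := q8rot_mul }
  refine ⟨MulAut.congr e.symm a, ?_, fun h => ?_⟩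
  · rw [← map_pow, show a ^ 3 = 1 from MulEquiv.ext q8rot_three, map_one]
  · rw [EmbeddingLike.map_eq_one_iff] at h
    exact absurd (MulEquiv.congr_fun h (.a 1)) (by decide)

end Aut

section Fusion

variable {Ω : Type u} [Group Ω] {S : Subgroup Ω}

/-- If `S` is normal in every saturated system, fusion in an isomorphic Sylow subgroup preserves
orders in centralizers. -/
theorem false_of_resistant [Finite S] (hN : ∀ F : FusionSystem S, F.IsSaturated 2 → F.IsNormal S)
    {G : Type} [Group G] [Finite G] (T : Sylow 2 G) {a : Ω → G} {b : G → Ω}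
    (h : Fus2.GIso S (T : Subgroup G) a b) {x y g : Ω} (hx : x ∈ S) (hy : y ∈ S) (hg : g ∈ S)
    (hc : IsConj (a x) (a y)) (hgx : g * x = x * g) {k : ℕ} (hk : g ^ k ≠ 1)
    (hyk : ∀ c ∈ S, c * y = y * c → c ^ k = 1) : False := by
  haveI : Fact (Nat.Prime 2) := ⟨Nat.prime_two⟩
  obtain ⟨E, hE⟩ := h.symm.exists_isoM (groupFusionSystem (T : Subgroup G))
  have hs := hE.saturated T.isPGroup' (group_isSaturated T)
  have hxy : E.IsConjElt x y := (Tr.isoM_isConjElt_iff hE.symm hx hy).1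
    ((Tr.group_isConjElt_iff (h.mem x hx) (h.mem y hy)).2 hc)
  obtain ⟨f, hf, rfl⟩ := isConjElt_iff.1 hxy
  obtain ⟨f', hf', e, -⟩ := (Fus2.isNormal_iff.1 (hN E hs)).2 _ f hf
  rw [sup_eq_right.2 hf.le] at hf'
  rw [← e x (mem_zpowers x)] at hyk
  refine hk (hf'.inj _ (S.pow_mem hg k) _ S.one_mem ?_)
  rw [hf'.homOn.map_pow hg, hf'.homOn.map_one]
  exact hyk _ (hf'.mem hg) (by rw [← hf'.homOn g hg x hx, hgx, hf'.homOn x hx g hg])

variable [Finite S] (hN : ∀ F : FusionSystem S, F.IsSaturated 2 → F.IsNormal S) {n : ℕ}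
include hN

theorem false_of_dih (D : Dih S n) (hn : 2 ≤ n) : False := by
  obtain ⟨q, _, -, T, D', h⟩ := Tr.exists_psl2 hn
  obtain ⟨a, b, hab, hr, hs⟩ := Tr.exists_gIso_of_coord _ _ _ _ D.r D.s D'.r D'.s D.r_mul_r
    D.r_mul_s D.s_mul_r D.s_mul_s D'.r_mul_r D'.r_mul_s D'.s_mul_r D'.s_mul_s D.r_inj D.s_inj
    D.r_ne_s D'.r_inj D'.s_inj D'.r_ne_s D.mem_iff D'.mem_iff
  refine false_of_resistant hN T hab (D.r_mem (hf n)) (D.s_mem 0) (D.r_mem 1)
    (by rw [hr, hs]; exact h 0) (by rw [D.r_mul_r, D.r_mul_r, add_comm]) (k := 2) ?_ ?_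
  · rw [sq, D.r_mul_r, Ne, D.r_eq_one]
    have := two_pow_ne_zero (n := n) (k := 1) (by omega)
    intro e; apply this; linear_combination e
  · intro c hc e
    have h2 := D.h2
    rcases (D.mem_iff c).1 hc with ⟨i, rfl⟩ | ⟨i, rfl⟩
    · rw [D.r_mul_s, D.s_mul_r, D.s_inj_iff] at e
      rw [sq, D.r_mul_r, D.r_eq_one]; linear_combination -e
    · rw [sq, D.s_mul_s, D.r_eq_one, sub_self]

theorem false_of_qd (D : QD S n) : False := by
  have hn := D.hn
  obtain ⟨G, _, _, T, D', h, -⟩ := Tr.exists_mq hn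
  obtain ⟨a, b, hab, hr, hs⟩ := Tr.exists_gIso_of_coord _ _ _ _ D.r D.s D'.r D'.s D.r_mul_r
    D.r_mul_s D.s_mul_r D.s_mul_s D'.r_mul_r D'.r_mul_s D'.s_mul_r D'.s_mul_s D.r_inj D.s_inj
    D.r_ne_s D'.r_inj D'.s_inj D'.r_ne_s D.mem_iff D'.mem_iff
  refine false_of_resistant hN T hab (D.r_mem (hf n)) (D.s_mem 0) (D.r_mem 1)
    (by rw [hr, hs]; exact h) (by rw [D.r_mul_r, D.r_mul_r, add_comm]) (k := 4) ?_ ?_
  · rw [D.r_pow, Ne, D.r_eq_one_iff]
    have := two_pow_ne_zero (n := n) (k := 2) (by omega)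
    intro e; apply this; push_cast at e; linear_combination e
  · intro c hc e
    have h2 := D.h2
    rcases (D.mem_iff c).1 hc with ⟨i, rfl⟩ | ⟨i, rfl⟩
    · rw [D.r_mul_s, D.s_mul_r, D.s_inj_iff] at e
      rw [D.r_pow, D.r_eq_one_iff]; push_cast; linear_combination -2 * e + i * h2
    · rw [show 4 = 2 * 2 from rfl, pow_mul, sq (D.s i), D.s_mul_s, D.r_pow, D.r_eq_one_iff]
      push_cast; linear_combination i * h2

theorem false_of_qt (D : QtF.Qt S n) (hn : 3 ≤ n) : False := by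
  obtain ⟨⟨G, _, _, T, D', h, -⟩, -⟩ := QtF.exists_groups hn
  obtain ⟨a, b, hab, hr, hs⟩ := Tr.exists_gIso_of_coord _ _ _ _ D.r D.s D'.r D'.s D.r_mul_r
    D.r_mul_s D.s_mul_r D.s_mul_s D'.r_mul_r D'.r_mul_s D'.s_mul_r D'.s_mul_s D.r_inj D.s_inj
    D.r_ne_s D'.r_inj D'.s_inj D'.r_ne_s D.mem_iff D'.mem_iff
  refine false_of_resistant hN T hab (D.r_mem (qt n)) (D.s_mem 0) (D.r_mem 1)
    (by rw [hr, hs]; exact h) (by rw [D.r_mul_r, D.r_mul_r, add_comm]) (k := 4) ?_ ?_
  · rw [D.r_pow, Ne, D.r_eq_one]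
    have := two_pow_ne_zero (n := n) (k := 2) (by omega)
    intro e; apply this; push_cast at e; linear_combination e
  · intro c hc e
    have h2 := D.h2
    rcases (D.mem_iff c).1 hc with ⟨i, rfl⟩ | ⟨i, rfl⟩
    · rw [D.r_mul_s, D.s_mul_r, D.s_inj_iff] at e
      rw [D.r_pow, D.r_eq_one]; push_cast; linear_combination -2 * e
    · rw [show 4 = 2 * 2 from rfl, pow_mul, sq (D.s i), D.s_mul_s, D.r_pow, D.r_eq_one]
      push_cast; linear_combination h2

end Fusion

end Cfsg.Agent.Ess
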