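import Cfsg.Agent.Lib.BS.Higman
import Cfsg.Agent.Lib.Ess.Data
import Cfsg.Prelude.Def_LieRecognition

/-! Suzuki 2-groups are resistant. -/

set_option autoImplicit false
set_option linter.style.haveILetI false
set_option linter.unusedVariables false

namespace Cfsg.Agent.Ess

open Subgroup Cfsg.Agent.Fus

theorem suzuki_exp {P : Type*} [Group P] (h : IsSuzukiTwoGroup P) :
    (∀ x : P, x * x = 1 → ∀ y, Commute x y) ∧ ∀ x : P, x ^ 4 = 1 := by
  obtain ⟨_, hP, ⟨a, b, hab⟩, ⟨x, y, hxy, x₁, x₂, y₁, y₂⟩, K, hK, hr⟩ := h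
  have h₁ : ∀ x : P, x * x = 1 → ∀ y, Commute x y := fun x hx y => by
    haveI : Nontrivial P := ⟨a * b, b * a, hab⟩
    obtain ⟨⟨z, hz⟩, h₁⟩ := exists_prime_orderOf_dvd_card' (G := center P) 2
      (((hP.to_subgroup _).card_eq_or_dvd).resolve_left (by
        haveI := hP.center_nontrivial
        exact Finite.one_lt_card.ne'))
    rw [← Subgroup.orderOf_coe] at h₁
    by_cases e : x = 1
    · simp [e]
    obtain ⟨k, rfl, -⟩ := hr z x (by rintro rfl; simp at h₁)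
      (by simpa [h₁, sq] using pow_orderOf_eq_one z) e hx
    obtain ⟨y, rfl⟩ := (k : MulAut P).surjective y
    exact (show Commute z y from (Subgroup.mem_center_iff.1 hz y).symm).map (k : MulAut P)
  refine ⟨h₁, fun w => ?_⟩
  haveI : Finite (P ⋊[K.subtype] K) := Finite.of_equiv _ SemidirectProduct.equivProd.symm
  have hl := SemidirectProduct.inl_injective (φ := K.subtype)
  have hr' := SemidirectProduct.inr_injective (φ := K.subtype)
  have hc : ∀ (k : K) (x : P), SemidirectProduct.inr k * SemidirectProduct.inl x *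
      (SemidirectProduct.inr k)⁻¹ = (SemidirectProduct.inl ((k : MulAut P) x) : P ⋊[K.subtype] K) :=
    fun k x => by rw [← map_inv]; exact (SemidirectProduct.inl_aut k x).symm
  have ho : ∀ x : P, orderOf (SemidirectProduct.inl x : P ⋊[K.subtype] K) = 2 → x ≠ 1 ∧ x * x = 1 :=
    fun x e => by
      rw [orderOf_injective _ hl] at e
      exact ⟨by rintro rfl; simp at e, by simpa [e, sq] using pow_orderOf_eq_one x⟩
  refine hl ((map_pow _ _ _).trans ((BS.higman' (S := SemidirectProduct.inl.range)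
    (K := SemidirectProduct.inr.range) (hP.of_equiv (MonoidHom.ofInjective hl))
    ((MonoidHom.ofInjective hr').isCyclic.1 hK) ?_ ?_ ?_ ?_ ?_ ⟨_, ⟨a, rfl⟩, _, ⟨b, rfl⟩,
      fun e => hab (hl (by simpa using e.eq))⟩).1 _ ⟨w, rfl⟩))
  · rintro _ ⟨k, rfl⟩ _ ⟨x, rfl⟩
    exact ⟨_, (hc k x).symm⟩
  · rintro _ ⟨k, rfl⟩ hk _ ⟨x, rfl⟩ e
    replace e := hl ((hc k x).symm.trans e)
    have : ∀ n, ∀ z : P, (k : MulAut P) z = z → z ^ 2 ^ n = 1 → z = 1 := fun n => by
      induction n with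
      | zero => simp
      | succ n ih =>
        intro z hz e
        by_contra h₂
        have h₃ := ih (z * z) (by rw [map_mul, hz]) (BS.pow_two_pow_succ z n ▸ e)
        exact hk (by rw [(hr z z h₂ h₃ h₂ h₃).unique hz (y₂ := 1) rfl, map_one])
    obtain ⟨n, hn⟩ := hP x
    rw [this n x e hn, map_one]
  · rintro _ ⟨x, rfl⟩ _ ⟨y, rfl⟩ hx hy
    obtain ⟨k, e, -⟩ := hr x y (ho x hx).1 (ho x hx).2 (ho y hy).1 (ho y hy).2
    exact ⟨_, ⟨k, rfl⟩, by rw [hc, e]⟩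
  · rintro _ ⟨x, rfl⟩ hx _ ⟨y, rfl⟩
    exact (h₁ x (hl (by simpa using hx)) y).map _
  · rw [← Nat.card_congr (MonoidHom.ofInjective hr').toEquiv]
    have z₁ : x * y ≠ 1 := fun e => hxy (mul_left_cancel (x₂.trans e.symm))
    have z₂ : x * y * (x * y) = 1 := by
      rw [mul_assoc, ← mul_assoc y, ← (h₁ x x₂ y).eq, mul_assoc, y₂, mul_one, x₂]
    obtain ⟨k, e₁, -⟩ := hr x y x₁ x₂ y₁ y₂
    obtain ⟨l, e₂, -⟩ := hr x _ x₁ x₂ z₁ z₂
    haveI := Fintype.ofFinite K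
    rw [Nat.card_eq_fintype_card]
    refine Fintype.two_lt_card_iff.2 ⟨1, k, l, ?_, ?_, ?_⟩ <;> rintro rfl
    · exact hxy e₁
    · exact y₁ (left_eq_mul.1 e₂)
    · exact x₁ (right_eq_mul.1 (e₁.symm.trans e₂))

theorem isNormal_of_exp_four {Ω : Type*} [Group Ω] {S : Subgroup Ω} [Finite S] (hS : IsPGroup 2 S)
    {F : FusionSystem S} (hF : F.IsSaturated 2) (h₁ : ∀ x : S, x * x = 1 → ∀ y, Commute x y)
    (h₂ : ∀ x : S, x ^ 4 = 1) : F.IsNormal S := by
  refine (isNormal_top_iff hS hF).2 fun E hE => ?_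
  have hES : E ≤ S := hE.1.1
  haveI : Finite E := Finite.of_injective _ (inclusion_injective hES)
  let Z : Subgroup Ω := ⟨⟨⟨{x | x ∈ S ∧ x * x = 1}, fun {a b} ha hb => ⟨mul_mem ha.1 hb.1, by
    have : a * b = b * a := congrArg Subtype.val (h₁ ⟨a, ha.1⟩ (Subtype.ext ha.2) ⟨b, hb.1⟩).eq
    rw [mul_assoc, ← mul_assoc b, ← this, mul_assoc, hb.2, mul_one, ha.2]⟩⟩, one_mem _, by simp⟩,
    fun {a} ha => ⟨inv_mem ha.1, by rw [← mul_inv_rev, ha.2, inv_one]⟩⟩
  have hc : BS.CExt S Z := ⟨fun _ h => h.1, fun z hz x hx =>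
    congrArg Subtype.val (h₁ ⟨z, hz.1⟩ (Subtype.ext hz.2) ⟨x, hx⟩).eq, fun _ h => h.2,
    fun x hx => ⟨mul_mem hx hx, by
      simpa only [pow_succ, pow_zero, one_mul, mul_assoc] using
        (show x ^ 4 = 1 from congrArg Subtype.val (h₂ ⟨x, hx⟩))⟩⟩
  have h := essData hS hF hE
  have hZ : Inv (F.autGroup E) (Z.subgroupOf E) := fun α _ x hx => ⟨hES (α x).2, by
    rw [← map_mul, ← map_mul, show x * x = 1 from Subtype.ext hx.2, map_one, map_one]⟩
  refine h.not_ctl (h.ctl_trans (inv_bot _) (ctl_ncl le_top (inv_top _) hZ fun t ht x _ => ?_)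
    (ctl_ncl bot_le hZ (inv_bot _) fun t ht => trivOn_bot_iff.2 fun x hx => ?_)) <;>
    obtain ⟨g, hg, e⟩ := mem_autInducedBy_iff.1 ht
  · simpa [mem_subgroupOf, e, mul_assoc] using hc.comm_mem (hES x.2) (inv_mem hg)
  · exact Subtype.ext (by rw [e, ← (hc.cent (x : Ω) hx g hg).eq]; simp)

end Cfsg.Agent.Ess
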