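import Cfsg.Agent.Lib.Ess.Conj
import Cfsg.Agent.Lib.ZJ.Tate
import Cfsg.Agent.Lib.Fus2.NormK

/-!
Yoshida's transfer theorem for fusion systems.
-/

set_option autoImplicit false
set_option linter.style.haveILetI false
set_option linter.unusedVariables false

namespace Cfsg.Agent.Ess

open Subgroup Cfsg.Agent.Fus Cfsg.Agent.TwoGrp
open Cfsg.FusionSystem (normalizerIn centralizerIn)
open Cfsg.Agent.Fus2 (M afn img HomOn)
open scoped commutatorElement

universe u

section Tools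

variable {G : Type u} [Group G] {p : ℕ}

theorem pow_le_card_of_lcs [Finite G] [hp : Fact p.Prime] (hG : IsPGroup p G) {m : ℕ} (hm : 1 ≤ m)
    (h : lcs G m ≠ ⊥) : p ^ (m + 2) ≤ Nat.card G := by
  have hne : ∀ i ≤ m, lcs G i ≠ ⊥ := fun i hi e => h (eq_bot_iff.2 ((lcs_anti hi).trans e.le))
  have key : ∀ j ≤ m, p ^ (j + 1) ≤ Nat.card (lcs G (m - j)) := fun j hj => by
    induction j with
    | zero => simpa using mul_card_le_of_lt (hG.to_subgroup _) (bot_lt_iff_ne_bot.2 h)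
    | succ j ih =>
      have h₁ := lcs_lt hG (hne (m - (j + 1)) (by omega))
      rw [show m - (j + 1) + 1 = m - j by omega] at h₁
      rw [pow_succ']
      exact (Nat.mul_le_mul_left _ (ih (by omega))).trans (mul_card_le_of_lt (hG.to_subgroup _) h₁)
  have h₁ := key (m - 1) (by omega)
  rw [show m - (m - 1) = 1 by omega, Nat.sub_add_cancel hm] at h₁
  rw [pow_add, ← (lcs G 1).card_mul_index]
  exact Nat.mul_le_mul h₁ (sq_le_index_lcs_one hG (hne 1 hm))

theorem cast_choose_pred [hp : Fact p.Prime] {k : ℕ} (hk : k < p) :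
    (((p - 1).choose k : ℕ) : ZMod p) = (-1) ^ k := by
  induction k with
  | zero => simp
  | succ k ih =>
    have h₁ : p.choose (k + 1) = (p - 1).choose k + (p - 1).choose (k + 1) := by
      rw [← Nat.choose_succ_succ', Nat.sub_add_cancel hp.out.one_le]
    have h₂ := (ZMod.natCast_eq_zero_iff _ _).2 (hp.out.dvd_choose_self (Nat.succ_ne_zero k) hk)
    rw [h₁, Nat.cast_add, ih (by omega)] at h₂
    linear_combination h₂

theorem fwdDiff_pred [hp : Fact p.Prime] (a : ℕ → ZMod p) :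
    (fwdDiff 1)^[p - 1] a 0 = ∑ i ∈ Finset.range p, a i := by
  rw [fwdDiff_iter_eq_sum_shift, Nat.sub_add_cancel hp.out.one_le]
  refine Finset.sum_congr rfl fun i hi => ?_
  have hi' := Finset.mem_range.1 hi
  rw [zsmul_eq_mul, Int.cast_mul, Int.cast_natCast, cast_choose_pred hi', Int.cast_pow,
    Int.cast_neg, Int.cast_one, ← pow_add, show p - 1 - i + i = p - 1 by omega,
    ZMod.pow_card_sub_one_eq_one (by simp)]
  simp

theorem toAdd_iterate_dif {T : Subgroup G} {l : G → Multiplicative (ZMod p)} (hl : HomOn T l)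
    (j : ℕ) {f : ℕ → G} (hf : ∀ n, f n ∈ T) (n : ℕ) :
    (l (dif^[j] f n)).toAdd = (fwdDiff 1)^[j] (fun n => (l (f n)).toAdd) n := by
  induction j generalizing f with
  | zero => rfl
  | succ j ih =>
    rw [Function.iterate_succ_apply, Function.iterate_succ_apply,
      ih (f := dif f) fun n => mul_mem (inv_mem (hf n)) (hf _)]
    refine congrArg (fun g => (fwdDiff 1)^[j] g n) (funext fun m => ?_)
    rw [dif, hl.map_mul (inv_mem (hf m)) (hf _), hl.map_inv (hf m)]
    simp [fwdDiff, sub_eq_neg_add]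

theorem map_itc {H : Type*} [Group H] (φ : G →* H) (x y : G) (j : ℕ) :
    φ (itc x y j) = itc (φ x) (φ y) j := by
  induction j with
  | zero => rfl
  | succ j ih => rw [itc, itc, map_commutatorElement, map_inv, map_inv, ih]

/-- A nontrivial transfer into a maximal subgroup gives a wreath product quotient. -/
theorem exists_wreath [Finite G] [hp : Fact p.Prime] (hG : IsPGroup p G) {T : Subgroup G}
    [hTn : T.Normal] (hT : T.index = p) {l : G → Multiplicative (ZMod p)} (hl : HomOn T l) {g u : G}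
    (hu : u ∈ T) (h : ∏ i ∈ Finset.range p, l ((g ^ i)⁻¹ * u * g ^ i) ≠ 1) :
    ∃ (W : Sylow p (Equiv.Perm (Fin (p ^ 2)))) (f : G →* (W : Subgroup (Equiv.Perm (Fin (p ^ 2))))),
      Function.Surjective f := by
  have h₁ : l (itc g u (p - 1)) ≠ 1 := fun e => h (by
    have := toAdd_iterate_dif hl (p - 1) (fun n => hTn.conj_mem' u hu (g ^ n)) 0
    rw [iterate_conj, fwdDiff_pred, ← toAdd_prod] at this
    exact Multiplicative.toAdd.injective (by simpa [e] using this.symm))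
  set R := hl.toHom.ker.map T.subtype with hR
  have hv : itc g u (p - 1) ∈ T := by
    induction p - 1 with
    | zero => exact hu
    | succ j ih => exact commutator_le_left _ _ (commutator_mem_commutator (inv_mem ih) (mem_top _))
  have h₂ : itc g u (p - 1) ∉ R := fun ⟨x, hx, e⟩ => h₁ (e ▸ hx)
  have hi : Nat.card (G ⧸ R) = p ^ 2 := by
    have h₃ : R.relIndex T ∣ p := by
      rw [Subgroup.relIndex, subgroupOf, comap_map_eq_self_of_injective T.subtype_injective,
        index_ker]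
      simpa using card_subgroup_dvd_card hl.toHom.range
    rw [← index, ← relIndex_mul_index (map_subtype_le _), relIndex_eq_of_dvd h₃ fun e => h₂ (e hv),
      hT, sq]
  let f := (Finite.equivFinOfCardEq hi).permCongrHom.toMonoidHom.comp (MulAction.toPermHom G (G ⧸ R))
  have hker : f.ker ≤ R := fun x hx => normalCore_le R (by
    rw [normalCore_eq_ker]
    exact (Finite.equivFinOfCardEq hi).permCongrHom.map_eq_one_iff.1 hx)
  have hf : IsPGroup p f.range := hG.of_surjective _ f.rangeRestrict_surjective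
  obtain ⟨W, hW⟩ := hf.exists_le_sylow
  have h₃ := pow_le_card_of_lcs hf (m := p - 1) (by have := hp.out.two_le; omega) fun e => h₂ (hker (by
    have := e.le (itc_mem (x := f.rangeRestrict g) (y := f.rangeRestrict u) (j := 0) trivial (p - 1)
      |> (zero_add (p - 1) ▸ ·))
    rw [← map_itc] at this
    exact congrArg Subtype.val this))
  have h₄ : f.range = W := Fus2.eq_of_le_of_card_le hW (le_trans (by
    rw [W.card_eq_multiplicity, Nat.card_perm, Nat.card_fin, Nat.factorization_def _ hp.out, sq,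
      padicValNat_factorial_mul]
    nth_rw 3 [← mul_one p]
    rw [padicValNat_factorial_mul]
    exact Nat.pow_le_pow_right hp.out.pos (by simp; have := hp.out.two_le; omega)) h₃)
  exact ⟨W, f.codRestrict _ fun x => hW ⟨x, rfl⟩, fun w => by
    obtain ⟨x, hx⟩ := h₄.ge w.2
    exact ⟨x, Subtype.ext hx⟩⟩

theorem exists_hom_zmod [Finite G] [hp : Fact p.Prime] {T : Subgroup G} [T.Normal]
    (hT : T.index = p) : ∃ θ : G →* Multiplicative (ZMod p), Function.Surjective θ ∧ θ.ker = T := by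
  let e : G ⧸ T ≃* Multiplicative (ZMod p) := mulEquivOfPrimeCardEq hT (by simp)
  exact ⟨e.toMonoidHom.comp (QuotientGroup.mk' T), e.surjective.comp (QuotientGroup.mk'_surjective T),
    Subgroup.ext fun x => e.map_eq_one_iff.trans (QuotientGroup.eq_one_iff x)⟩

theorem exists_hom_zmod_of_ne_top [Finite G] [hp : Fact p.Prime] (hG : IsPGroup p G)
    {H : Subgroup G} (hH : H ≠ ⊤) :
    ∃ θ : G →* Multiplicative (ZMod p), Function.Surjective θ ∧ H ≤ θ.ker := by
  obtain ⟨T, hT, hle⟩ := (eq_top_or_exists_le_coatom H).resolve_left hH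
  have hi := Fit.index_eq_prime_of_isCoatom hG hT
  haveI := Fit.normal_of_index_eq_prime hG hi
  obtain ⟨θ, h₁, h₂⟩ := exists_hom_zmod hi
  exact ⟨θ, h₁, h₂ ▸ hle⟩

end Tools

section Fusion

open Biset

variable {Ω : Type u} [Group Ω] {S : Subgroup Ω} {F : FusionSystem S} {p : ℕ}
  [Finite S] [hp : Fact p.Prime] (hS : IsPGroup p S) (hF : F.IsSaturated p)
include hS hF

/-- Yoshida's theorem for a character of order `p`. -/
theorem yoshida_core (χ : S →* Multiplicative (ZMod p))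
    (hχ : ∀ f, M F S f → ∀ a b : S, f a = b → χ b = χ a)
    (h : ∃ u : S, (u : Ω) ∈ F.focalSubgroup ∧ χ u ≠ 1) :
    ∃ (W : Sylow p (Equiv.Perm (Fin (p ^ 2)))) (f : S →* (W : Subgroup (Equiv.Perm (Fin (p ^ 2))))),
      Function.Surjective f := by
  classical
  obtain ⟨u, ⟨hu, hu'⟩, hmin⟩ : ∃ u : S, ((u : Ω) ∈ F.focalSubgroup ∧ χ u ≠ 1) ∧
      ∀ v : S, (v : Ω) ∈ F.focalSubgroup ∧ χ v ≠ 1 → orderOf u ≤ orderOf v :=
    Set.exists_min_image {u : S | (u : Ω) ∈ F.focalSubgroup ∧ χ u ≠ 1} orderOf (Set.toFinite _) h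
  obtain ⟨X, _, hX⟩ := exists_isCharBiset hS F hF
  haveI := hX.finite
  obtain ⟨κ, hκ⟩ := exists_weight (ract S X) χ (sat_univ _) fun t x _ e => by
    rw [ract_free hX.stab e, map_one]
  have hκ' : ∀ t x, κ ((ract S X).comp (MonoidHom.id S) t x) = χ t * κ x := fun t x => hκ t x trivial
  have hc : ∀ (s t : S) (x : X), lact S X s (ract S X t x) = ract S X t (lact S X s x) := lact_ract
  have h₁ : deg (ract S X) κ Set.univ (lact S X u) = 1 := by
    obtain ⟨z, h₃, h₄⟩ := focal_le_ker ((transfer _ χ κ hκ').comp (iota S X))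
      (fun P f hf a b => (hX.stableBiset hS).map_iota_eq (transfer _ χ κ hκ') hf) hu
    obtain rfl : z = u := Subtype.ext h₄
    exact h₃
  have h₂ : deg (ract S X) κ (Set.univ \ XP S X S) (lact S X u) ≠ 1 := fun e => by
    rw [deg] at e
    rw [deg, oprod_diff (Set.subset_univ (XP S X S)), e, mul_one, oprod_eq_pow (c := (χ u)⁻¹), inv_pow, inv_eq_one] at h₁
    · exact hu' (eq_one_of_pow_coprime (p := p) (k := 1) (by
        simpa using pow_card_eq_one' (x := χ u)) ((hp.out.coprime_iff_not_dvd.2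
          (hX.not_dvd_ocard_XP hS le_rfl)).symm) h₁)
    intro x hx
    obtain ⟨f, hf, e⟩ := exists_pmap hX.stab x
    have h₃ := (e u ⟨f u, hf.mem (hx u.2)⟩).2 ⟨hx u.2, rfl⟩
    rw [hc] at h₃
    nth_rw 2 [← h₃]
    rw [hκ _ _ trivial, hχ f (hf.mono hx) u _ rfl]
    simp
  set ρ := MulAction.toPermHom (S × S) X with hρ
  haveI := Fintype.ofFinite (Quotient (orb ρ))
  rw [deg, oprod_fiberwise Finset.univ (Quotient.mk (orb ρ)) fun _ _ => Finset.mem_univ _] at h₂
  obtain ⟨ω, -, h₃⟩ := Finset.exists_ne_one_of_prod_ne_one h₂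
  set Y := {x | x ∈ Set.univ \ XP S X S ∧ Quotient.mk (orb ρ) x = ω} with hY
  have hYl : ∀ s, ∀ x ∈ Y, lact S X s x ∈ Y := fun s x hx => ⟨⟨trivial, fun e => hx.1.2 (by
    simpa [← Equiv.Perm.mul_apply, ← map_mul] using lact_mem_XP le_rfl (s := s⁻¹)
      (le_normalizer s⁻¹.2) e)⟩, (Quotient.sound (orb_apply ρ (s, 1) x)).symm.trans hx.2⟩
  have hYr : ∀ t, ∀ x ∈ Y, ract S X t x ∈ Y := fun t x hx => ⟨⟨trivial, fun e => hx.1.2
    (sat_XP S _ _ ((orb _).symm (orb_apply _ t x)) e)⟩,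
      (Quotient.sound (orb_apply ρ (1, t) x)).symm.trans hx.2⟩
  obtain ⟨x₀, hx₀⟩ : ∃ x, x ∈ Y := by
    by_contra! e
    exact h₃ (oprod_eq_one fun x hx => absurd hx (e x))
  obtain ⟨θ, hθ, hθ'⟩ := exists_hom_zmod_of_ne_top hS (H := (pdom S x₀).subgroupOf S)
    fun e => hx₀.1.2 (subgroupOf_eq_top.1 e)
  have hst : ∀ (a : S × S), ∀ x ∈ Y, ρ a x = x → θ a.1 = 1 := fun a x hx e => by
    obtain ⟨b, rfl⟩ := Quotient.exact (hx₀.2.trans hx.2.symm)
    have h₄ : (b⁻¹ * a * b).1 ∈ θ.ker := hθ' (mem_subgroupOf.2 (coe_mem_pdom.2 ⟨(b⁻¹ * a * b).2, by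
      rw [← smul_eq_lact_ract, Prod.mk.eta, mul_smul, mul_smul, inv_smul_eq_iff]; exact e⟩))
    simpa [mul_comm] using h₄
  by_cases hθu : θ u = 1
  · obtain ⟨c, hc'⟩ := exists_weight ρ (θ.comp (MonoidHom.fst S S)) (Y := Y) (sat_orb fun a x hx => by
      rw [show ρ a x = _ from smul_eq_lact_ract a.1 a.2 x]; exact hYl _ _ (hYr _ _ hx)) hst
    have hcl : ∀ s, ∀ x ∈ Y, c (lact S X s x) = θ s * c x := fun s x hx => hc' (s, 1) x hx
    have hcr : ∀ t, ∀ x ∈ Y, c (ract S X t x) = c x := fun t x hx =>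
      (hc' (1, t) x hx).trans (by simp)
    obtain ⟨g, hg⟩ := hθ (Multiplicative.ofAdd 1)
    have hYi : ∀ s, ∀ x, x ∈ Y ↔ lact S X s x ∈ Y := fun s x => ⟨hYl s x, fun e => by
      simpa [← Equiv.Perm.mul_apply, ← map_mul] using hYl s⁻¹ _ e⟩
    have hsat : ∀ i, Sat (orb (ract S X)) {x | x ∈ Y ∧ (c x).toAdd.val = i} := fun i =>
      sat_orb fun t x hx => ⟨hYr t x hx.1, by rw [hcr t x hx.1]; exact hx.2⟩
    have hfix : ∀ i, ∀ t ∈ θ.ker, ∀ x, x ∈ {x | x ∈ Y ∧ (c x).toAdd.val = i} ↔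
        lact S X t x ∈ {x | x ∈ Y ∧ (c x).toAdd.val = i} := fun i t ht x =>
      ((hYi t x).and Iff.rfl).trans (and_congr_right fun hx => by
        rw [hcl t x ((hYi t x).2 hx), MonoidHom.mem_ker.1 ht, one_mul])
    refine exists_wreath hS (T := θ.ker) (by rw [index_ker, MonoidHom.range_eq_top.2 hθ]; simp)
      (l := fun t => deg (ract S X) κ {x | x ∈ Y ∧ (c x).toAdd.val = 0} (lact S X t))
      (fun a ha b hb => ?_) (g := g) hθu fun e => h₃ ?_
    · beta_reduce
      rw [map_mul]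
      exact deg_mul (hsat 0) (hsat 0) (fun t x _ => hκ t x trivial) (fun t x _ => hκ t x trivial)
        (hc b) (hc a) (hfix 0 b hb) fun x hx => (hfix 0 a ha x).1 hx
    · rw [oprod_fiberwise (Finset.range p) (fun x => (c x).toAdd.val)
        fun x _ => Finset.mem_range.2 (ZMod.val_lt _), ← e]
      refine Finset.prod_congr rfl fun i hi => ?_
      have := deg_transport (hsat 0) (hsat i) (MulEquiv.refl _) (MulEquiv.refl _) (fun _ => rfl)
        (fun t x _ => hκ t x trivial) (fun t x _ => hκ t x trivial) (hc (g ^ i)) (fun x =>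
          ((hYi _ x).and Iff.rfl).trans (and_congr_right fun hx => by
            rw [hcl _ x ((hYi _ x).2 hx), map_pow, hg, toAdd_mul, toAdd_pow, toAdd_ofAdd,
              ZMod.val_eq_zero, nsmul_one, ← (ZMod.val_cast_of_lt (Finset.mem_range.1 hi)),
              (ZMod.val_injective p).eq_iff, ZMod.natCast_zmod_val, add_eq_left]))
        (hc ((g ^ i)⁻¹ * u * g ^ i)) (hfix 0 _ (MonoidHom.normal_ker θ |>.conj_mem' u hθu _))
      rw [← map_inv, ← map_mul, ← map_mul, show g ^ i * ((g ^ i)⁻¹ * u * g ^ i) * (g ^ i)⁻¹ = u by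
        group] at this
      exact this
  · exfalso
    obtain ⟨κ', h₄⟩ := exists_weight (ρ.comp (MonoidHom.prodMap (zpowers u).subtype (MonoidHom.id S)))
      (χ.comp (MonoidHom.snd _ _)) (Y := Y) (sat_orb fun a x hx =>
        Set.mem_of_eq_of_mem (smul_eq_lact_ract (a.1 : S) a.2 x) (hYl _ _ (hYr _ _ hx))) (by
      rintro ⟨a, b⟩ x hx e
      by_contra h₅
      obtain ⟨f, hf, e'⟩ := exists_pmap hX.stab x
      obtain ⟨h₆, h₇⟩ := (e' a b).1 ((smul_eq_lact_ract _ _ x).symm.trans e)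
      have h₈ : ((a : S) : Ω) ∈ F.focalSubgroup :=
        (zpowers_le (G := S) (H := F.focalSubgroup.subgroupOf S)).2 hu a.2
      have h₉ := hmin b ⟨by simpa [h₇] using mul_mem h₈ (hf.mem_focal h₆), h₅⟩
      have h₁₀ : orderOf b ≤ orderOf (a : S) := orderOf_le_of_pow_eq_one (orderOf_pos _)
        (Subtype.ext (by
          rw [Subgroup.coe_pow, ← h₇, ← hf.map_pow h₆, ← Subgroup.coe_pow, pow_orderOf_eq_one]
          exact hf.map_one))
      have h₁₁ : zpowers (a : S) = zpowers u := Fus2.eq_of_le_of_card_le (zpowers_le.2 a.2)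
        (by rw [Nat.card_zpowers, Nat.card_zpowers]; exact h₉.trans h₁₀)
      exact hθu ((zpowers_le (H := θ.ker)).2 (hst (a, b) x hx e) (h₁₁.ge (mem_zpowers u))))
    refine h₃ ((deg_eq_of_weight (κ' := κ') (sat_orb hYr) (fun t x _ => hκ t x trivial)
      (fun t x hx => h₄ (1, t) x hx) (hc u) fun x => ⟨hYl u x, fun e => by
        simpa [← Equiv.Perm.mul_apply, ← map_mul] using hYl u⁻¹ _ e⟩).trans
      (oprod_eq_one fun x hx => ?_))
    rw [show κ' (lact S X u x) = _ from h₄ (⟨u, mem_zpowers u⟩, 1) x hx]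
    simp

theorem yoshida {K : Subgroup Ω} (h₁ : ∀ f, M F S f → ∀ x ∈ S, x⁻¹ * f x ∈ K)
    (h₂ : K ≤ (frattini S).map S.subtype ⊔ F.hyperfocalSubgroup p ⊓ K)
    (h : ¬ F.focalSubgroup ≤ K) :
    ∃ (W : Sylow p (Equiv.Perm (Fin (p ^ 2)))) (f : S →* (W : Subgroup (Equiv.Perm (Fin (p ^ 2))))),
      Function.Surjective f := by
  have hc : ∀ s ∈ S, ∀ x ∈ S, x⁻¹ * (s * x * s⁻¹) ∈ K := fun s hs => h₁ _ (Fus2.M_conj F le_rfl hs)
  have h₃ : ¬ F.focalSubgroup ≤ (frattini S).map S.subtype ⊔ K := fun e => h (by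
    rw [Fus2.foc_eq_hyp_sup hS hF]
    refine sup_le ((ZJF.hyp_le_of_le_frattini_sup hS hF inf_le_left (((Fus2.hyp_le_foc F p).trans
      e).trans (sup_le le_sup_left h₂)) fun s hs x hx => ⟨Fus2.conj_mem_hyp hs hx.1, ?_⟩).trans
        inf_le_right) (commutator_le.2 fun x hx y hy => ?_)
    · simpa using mul_mem hx.2 (hc s hs x (Fus2.hyp_le F p hx.1))
    · have := hc y hy _ (inv_mem hx)
      rwa [inv_mul_conj_eq, inv_inv] at this)
  obtain ⟨u, hu, hu'⟩ := SetLike.not_le_iff_exists.1 h₃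
  have huS := Fus2.foc_le F hu
  obtain ⟨T, hT, h₄, h₅⟩ : ∃ T : Subgroup S, IsCoatom T ∧ frattini S ⊔ K.subgroupOf S ≤ T ∧
      (⟨u, huS⟩ : S) ∉ T := by
    haveI : (frattini S ⊔ K.subgroupOf S).Normal :=
      Normal.of_commutator_le _ ((Fit.commutator_le_frattini hS).trans le_sup_left)
    have hs := QuotientGroup.mk'_surjective (frattini S ⊔ K.subgroupOf S)
    by_contra! e
    refine hu' ((show (frattini S ⊔ K.subgroupOf S).map S.subtype ≤ _ by
      rw [Subgroup.map_sup, subgroupOf_map_subtype]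
      exact sup_le_sup_left inf_le_left _) ⟨⟨u, huS⟩, ?_, rfl⟩)
    have h₄ : QuotientGroup.mk' _ ⟨u, huS⟩ ∈ frattini (S ⧸ (frattini S ⊔ K.subgroupOf S)) :=
      Fit.mem_frattini_iff.2 fun M hM => e _ (isCoatom_comap_of_surjective hs hM)
        (Fit.le_comap_mk' _ M)
    rw [← Fit.map_frattini_eq_of_isPGroup hS hs] at h₄
    obtain ⟨y, hy, e'⟩ := h₄
    simpa using mul_mem (mem_sup_left hy) (QuotientGroup.eq.1 e')
  have hi := Fit.index_eq_prime_of_isCoatom hS hT
  haveI := Fit.normal_of_index_eq_prime hS hi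
  obtain ⟨χ, -, hχ⟩ := exists_hom_zmod hi
  exact yoshida_core hS hF χ (fun f hf a b e => ((eq_iff_mem_ker χ).2 (hχ ▸ h₄ (mem_sup_right
    (show (a : Ω)⁻¹ * b ∈ K from e ▸ h₁ f hf a a.2)))).symm) ⟨⟨u, huS⟩, hu, fun e => h₅ (hχ.le e)⟩

end Fusion

end Cfsg.Agent.Ess
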